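import Mathlib

/-!
# Explicit involutions of prescribed rank in characteristic two
-/

set_option autoImplicit false

namespace CfsgLib.Inv2

open Matrix

variable {F : Type*} [Field F] {n l : ℕ}

variable (F n l) in
/-- The matrix of the coordinate embedding shifted by `c`. -/
def shiftMat (c : ℕ) : Matrix (Fin n) (Fin l) F :=
  Matrix.of fun i k => if i.val = k.val + c then 1 else 0

theorem shiftMat_transpose_mul_self {c : ℕ} (h : l + c ≤ n) :
    (shiftMat F n l c)ᵀ * shiftMat F n l c = 1 := by
  ext k k'
  rw [Matrix.mul_apply, Finset.sum_eq_single ⟨k + c, by omega⟩]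
  · simp [shiftMat, Matrix.one_apply, Fin.ext_iff]
  · intro i _ hi
    simp [shiftMat, show i.val ≠ k.val + c from fun h => hi (Fin.ext h)]
  · simp

theorem shiftMat_transpose_mul {c d : ℕ} (h : l + c ≤ d ∨ l + d ≤ c) :
    (shiftMat F n l c)ᵀ * shiftMat F n l d = 0 := by
  ext k k'
  rw [Matrix.mul_apply]
  refine Finset.sum_eq_zero fun i _ => ?_
  simp only [shiftMat, transpose_apply, of_apply]
  split_ifs <;> first | omega | simp

theorem shiftMat_mul_transpose (c d : ℕ) (i j : Fin n) :
    (shiftMat F n l c * (shiftMat F n l d)ᵀ) i j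
      = if d ≤ j.val ∧ j.val < l + d ∧ i.val + d = j.val + c then 1 else 0 := by
  rw [Matrix.mul_apply]
  simp only [shiftMat, transpose_apply, of_apply]
  split_ifs with h
  · rw [Finset.sum_eq_single ⟨j - d, by omega⟩, if_pos (by simp only; omega),
      if_pos (by simp only; omega), one_mul]
    · intro k _ hk
      rw [if_neg (c := j.val = _) fun h' => hk (Fin.ext (by simp only; omega)), mul_zero]
    · simp
  · refine Finset.sum_eq_zero fun k _ => ?_
    split_ifs <;> first | omega | simp

theorem rank_mul_eq {A : Matrix (Fin n) (Fin l) F} {B : Matrix (Fin l) (Fin n) F}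
    {A' : Matrix (Fin l) (Fin n) F} {B' : Matrix (Fin n) (Fin l) F} (hA : A' * A = 1)
    (hB : B * B' = 1) : (A * B).rank = l := by
  refine le_antisymm ((rank_mul_le_left A B).trans (rank_le_width A)) ?_
  have h1 : A' * (A * B) * B' = 1 := by rw [← Matrix.mul_assoc, hA, Matrix.one_mul, hB]
  have h2 := (rank_mul_le_left (A' * (A * B)) B').trans (rank_mul_le_right A' (A * B))
  rwa [h1, rank_one, Fintype.card_fin] at h2

theorem exists_SL_of_sq_zero [CharP F 2] {N : Matrix (Fin n) (Fin n) F} (h : N * N = 0)
    (hl : 1 ≤ l) (hN : N.rank = l) :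
    ∃ a : SpecialLinearGroup (Fin n) F, (a : Matrix (Fin n) (Fin n) F) = 1 + N ∧ a * a = 1 ∧
      a ≠ 1 ∧ ((a : Matrix (Fin n) (Fin n) F) - 1).rank = l := by
  have h1 : (1 + N) * (1 + N) = 1 := by
    have : N + N = 0 := by ext i j; exact CharTwo.add_self_eq_zero _
    rw [add_mul, mul_add, mul_add, h, one_mul, one_mul, mul_one, add_zero, add_assoc, this, add_zero]
  have h2 : (1 + N).det = 1 := by
    have := congrArg det h1
    rw [det_mul, det_one, mul_self_eq_one_iff, CharTwo.neg_eq, or_self] at this
    exact this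
  refine ⟨⟨_, h2⟩, rfl, Subtype.ext h1, fun h3 => ?_, by simpa using hN⟩
  have : N = 0 := by simpa using congrArg Subtype.val h3
  rw [this, rank_zero] at hN
  omega

end CfsgLib.Inv2
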