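import Mathlib
import Cfsg.Agent.Lib.Inv2.Inv

/-!
# Involutions of the matrix symplectic group in characteristic two
-/

set_option autoImplicit false

namespace CfsgLib.Inv2

open Module CfsgLib.Forms Matrix

variable {F : Type*} [Field F] {m : ℕ}

theorem sp_finrank_mov (t : symplecticGroup (Fin m) F) :
    finrank F (mov (spEquiv (Fin m) F t).1)
      = ((t : Matrix (Fin m ⊕ Fin m) (Fin m ⊕ Fin m) F) - 1).rank :=
  finrank_mov_eq_rank (spEquiv_apply _ _ t)

theorem sp_typeA_iff (t : symplecticGroup (Fin m) F) :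
    TypeA (spPQ (Fin m) F) (spEquiv (Fin m) F t).1 ↔
      ∀ v, Cfsg.sympForm m F v ((t : Matrix (Fin m ⊕ Fin m) (Fin m ⊕ Fin m) F) *ᵥ v) = 0 :=
  forall_congr' fun v => by rw [← spB_eq_sympForm]; rfl

theorem finrank_sum_fun : finrank F (Fin m ⊕ Fin m → F) = 2 * m := by simp [two_mul]

theorem sp_mul_self {t : symplecticGroup (Fin m) F} (ht : t ^ 2 = 1) :
    spEquiv (Fin m) F t * spEquiv (Fin m) F t = 1 := by
  rw [← map_mul, ← pow_two, ht, map_one]

variable [CharP F 2]

theorem sp_rank_le {t : symplecticGroup (Fin m) F} (ht : t ^ 2 = 1) :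
    ((t : Matrix (Fin m ⊕ Fin m) (Fin m ⊕ Fin m) F) - 1).rank ≤ m := by
  have := two_mul_finrank_mov_le (spPQ_nondeg _ _) (spEquiv (Fin m) F t).2
    (congrArg Subtype.val (sp_mul_self ht))
  rw [sp_finrank_mov, finrank_sum_fun] at this
  omega

theorem sp_sq_of_rank_one {t : symplecticGroup (Fin m) F}
    (h : ((t : Matrix (Fin m ⊕ Fin m) (Fin m ⊕ Fin m) F) - 1).rank = 1) : t ^ 2 = 1 := by
  rw [← sp_finrank_mov] at h
  obtain ⟨v, -, hv⟩ := finrank_eq_one_iff'.1 h
  apply (spEquiv (Fin m) F).injective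
  rw [pow_two, map_mul, map_one]
  refine Subtype.ext (mul_self_of_fix fun u hu =>
    (mem_perp_mov (spPQ_nondeg _ _) (spEquiv (Fin m) F t).2).1 fun w hw => ?_)
  obtain ⟨a, ha⟩ := hv ⟨u, hu⟩
  obtain ⟨b, hb⟩ := hv ⟨w, hw⟩
  rw [← show a • (v : Fin m ⊕ Fin m → F) = u from congrArg Subtype.val ha,
    ← show b • (v : Fin m ⊕ Fin m → F) = w from congrArg Subtype.val hb, PQ.B_smul_left,
    PQ.B_smul_right, B_self, mul_zero, mul_zero]

variable [Fintype F]

omit [CharP F 2] in
theorem sp_card_of_typeA {t : symplecticGroup (Fin m) F}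
    (h : TypeA (spPQ (Fin m) F) (spEquiv (Fin m) F t).1) :
    Nat.card {v : Fin m ⊕ Fin m → F // Cfsg.sympForm m F v
      ((t : Matrix (Fin m ⊕ Fin m) (Fin m ⊕ Fin m) F) *ᵥ v) = 0} = Fintype.card F ^ (2 * m) := by
  rw [Nat.card_congr (Equiv.subtypeUnivEquiv ((sp_typeA_iff t).1 h))]
  simp [two_mul]

theorem sp_card_of_not_typeA {t : symplecticGroup (Fin m) F} (ht : t ^ 2 = 1)
    (h : ¬ TypeA (spPQ (Fin m) F) (spEquiv (Fin m) F t).1) :
    Nat.card {v : Fin m ⊕ Fin m → F // Cfsg.sympForm m F v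
      ((t : Matrix (Fin m ⊕ Fin m) (Fin m ⊕ Fin m) F) *ᵥ v) = 0} * Fintype.card F
      = Fintype.card F ^ (2 * m) := by
  have := card_of_not_typeA (spEquiv (Fin m) F t).2 (congrArg Subtype.val (sp_mul_self ht)) h
  rw [Nat.card_eq_fintype_card (α := F), Module.natCard_eq_pow_finrank (K := F) (V := Fin m ⊕ Fin m → F),
    finrank_sum_fun,
    Nat.card_eq_fintype_card (α := F)] at this
  rw [← this]
  congr 1
  exact Nat.card_congr (Equiv.subtypeEquivRight fun v => by rw [← spB_eq_sympForm]; rfl)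

theorem sp_card_centralizer {t : symplecticGroup (Fin m) F} (ht : t ^ 2 = 1) {s j : ℕ}
    (hs : ((t : Matrix (Fin m ⊕ Fin m) (Fin m ⊕ Fin m) F) - 1).rank = s) (hj : m = s + j) :
    Nat.card (Subgroup.centralizer ({t} : Set (symplecticGroup (Fin m) F)))
      = Nat.card (formIsom (wall (spPQ (Fin m) F) (spEquiv (Fin m) F t).1)) *
        (Nat.card F ^ (s * (2 * j) + s.choose 2 + s) * spOrd (Nat.card F) j) := by
  rw [← card_centralizer_congr (spEquiv (Fin m) F), card_centralizer_of_top (spPQ_nondeg _ _) rfl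
    (sp_mul_self ht) ((sp_finrank_mov t).trans hs) (by rw [finrank_sum_fun, hj])]

theorem sp_card_classes : Nat.card {C : ConjClasses (symplecticGroup (Fin m) F) //
    ∃ g, ConjClasses.mk g = C ∧ orderOf g = 2} = m + m / 2 := by
  obtain ⟨M, hM, -, hmax⟩ := (spPQ (Fin m) F).ts_bot.exists_maximal
  rw [card_classes_congr (spEquiv (Fin m) F)]
  refine card_classes_of_top (spPQ_nondeg _ _) rfl finrank_sum_fun hM ?_
  have h1 := (spPQ (Fin m) F).finrank_perp (spPQ_nondeg _ _) M
  have h2 : (spPQ (Fin m) F).perp M = M := le_antisymm (fun x hx => by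
    have := hmax (M ⊔ Submodule.span F {x}) le_sup_left
      (hM.sup ((spPQ (Fin m) F).ts_span_singleton trivial) (by simpa using hx))
    exact this ▸ Submodule.mem_sup_right (Submodule.mem_span_singleton_self x)) hM.2
  rw [h2, finrank_sum_fun] at h1
  omega

end CfsgLib.Inv2
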